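import Cfsg.Agent.H682.EB.Loc
import Cfsg.Agent.H711.BabyReal
import Cfsg.Agent.KFacts.Baby.Inst
import Cfsg.Agent.BM.KHAll

/-!
# S4522: `Loc 11` for the Baby Monster (helper682)

`C(2B) = 2^(1+22).Co₂`; the elements of order 11 are real.
-/

set_option autoImplicit false

namespace Cfsg.Agent.H682.EB

open Subgroup
open Cfsg Cfsg.Agent.BabyM Cfsg.Agent.BabyM.Model Cfsg.Agent.BabyU.ClosModel Cfsg.Agent.KFacts.AutLarge
open Cfsg.Agent.BabyU.ClosLane

universe u

theorem loc_b_model : Loc 11 Inst.M.G := by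
  have hfin := A.finite_G
  have L := KFacts.Baby.Inst.large A
  have hC : Nat.card (centralizer ({zz A} : Set Inst.M.G)) = 2 ^ 23 * 42305421312000 := by
    rw [Nat.card_congr (KFacts.Baby.Inst.eC A).toEquiv, A.grp.card_C]
  obtain ⟨w, hw, hr⟩ := H711.BabyReal.eleven
  have hx : orderOf (zz A) = 2 := by
    have := Fact.mk Nat.prime_two
    exact orderOf_eq_prime (by rw [pow_two]; exact L.z_sq) L.z_ne
  refine loc_of (by norm_num) ?_ hw hr hx (by rw [hC]; norm_num) (PP Inst.M) (two A) L.comm_z ?_ ?_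
  · rw [A.card_G]
    norm_num
  · intro c hc e he
    exact L.conj_mem c hc e he
  · intro c hc h
    exact L.self c hc h

theorem loc_b {G : Type u} [Group G] (h : Spor.IsoB G) : Loc 11 G := by
  obtain ⟨e⟩ := h
  exact loc_b_model.congr (BM.KHAll.iso.symm.trans e.symm)

theorem card_b {G : Type u} [Group G] (h : Spor.IsoB G) : Nat.card G = 4154781481226426191177580544000000 := by
  obtain ⟨e⟩ := h
  rw [Nat.card_congr e.toEquiv]
  exact BM.KHAll.card_B

end Cfsg.Agent.H682.EB
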