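import Cfsg.Agent.H684.EB.Base
import Cfsg.Agent.H682.EB.Loc

/-!
# S4522: `Loc r S` gives `EvenB S` (helper682)

The criterion (P1B) and the one block theorem for constrained groups are hypotheses here.
-/

set_option autoImplicit false

namespace Cfsg.Agent.H682.EB

open Subgroup
open Cfsg Cfsg.Agent.H610.EB Cfsg.Agent.H684.EB

universe u

/-- statement of T03 (one block) for the group `C` -/
def OneB (C : Type u) [Group C] : Prop :=
  ∀ M : Ideal AlgInt, IsPModular 2 M → ∀ χ : IrrCharacter C, χ ∈ principalBlock M C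

/-- `EvenB S` from `Loc r S`; `h3` is T03 for the centralizer, `h4` is T04 -/
theorem evenB_of_loc' {S : Type u} [Group S] {r : ℕ} (h : Loc r S) (h1 : ¬ r ^ 2 ∣ Nat.card S)
    (h3 : ∀ (x : S) (E : Subgroup (centralizer ({x} : Set S))), E.Normal → IsPGroup 2 E →
      centralizer (E : Set (centralizer ({x} : Set S))) ≤ E → OneB (centralizer ({x} : Set S)))
    (h4 : ¬ r ^ 2 ∣ Nat.card S → ∀ y : S, orderOf y = r → IsConj y y⁻¹ → ∀ x : S, (∃ j : ℕ, orderOf x = 2 ^ j) →
      Commute x y → OneB (centralizer ({x} : Set S)) → EvenB S) : EvenB S := by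
  obtain ⟨y, x, E, hy, hr, hx, hxy, hE, h5, h6, h7⟩ := h.ex
  refine h4 h1 y hy hr x ⟨1, by rw [hx, pow_one]⟩ hxy (h3 x (E.subgroupOf _) ?_ ?_ ?_)
  · refine ⟨fun n hn g => ?_⟩
    exact h6 g (mem_centralizer_singleton_iff.1 g.2) n hn
  · intro e
    obtain ⟨k, hk⟩ := hE ⟨(e : centralizer ({x} : Set S)), e.2⟩
    refine ⟨k, ?_⟩
    apply Subtype.ext
    apply Subtype.ext
    exact congrArg (fun a : E => (a : S)) hk
  · intro c hc
    refine h7 c (mem_centralizer_singleton_iff.1 c.2) fun e he => ?_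
    have h8 := mem_centralizer_iff.1 hc ⟨e, mem_centralizer_singleton_iff.2 (h5 e he)⟩ he
    exact (congrArg (fun a : centralizer ({x} : Set S) => (a : S)) h8).symm

end Cfsg.Agent.H682.EB
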