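import Cfsg.Agent.H682.EB.LocEven
import Cfsg.Agent.H682.EB.CoOneLoc
import Cfsg.Agent.H682.EB.BabyLoc
import Cfsg.Agent.H104.EB.COne
import Cfsg.Agent.H410.EB.P1B

/-!
# S4522: `EvenB` for Co₁ and the baby monster (helper682)
-/

set_option autoImplicit false

namespace Cfsg.Agent.H682.EB

open Subgroup
open Cfsg Cfsg.Agent.H610.EB Cfsg.Agent.H684.EB

universe u

theorem evenB_of_loc {S : Type u} [Group S] [Fintype S] [IsSimpleGroup S] {r : ℕ} (hr : r.Prime) (hr2 : r ≠ 2)
    (h : Loc r S) (h1 : ¬ r ^ 2 ∣ Nat.card S) : EvenB S := by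
  refine evenB_of_loc' h h1 ?_ ?_
  · intro x E hE hE2 hC M hM
    exact H104.EB.COne.oneBlock_of_constrained hM E hE2 hC
  · intro h1 y hy hreal x hx hxy hone
    exact H410.EB.evenB_of_p1 hr hr2 h1 y hy hreal x hx hxy hone

theorem evenB_co1 {S : Type u} [Group S] [Fintype S] [IsSimpleGroup S] (h : Spor.IsoCo1 S) : EvenB S :=
  evenB_of_loc (r := 11) (by norm_num) (by norm_num) (CoOne.loc_co1 h) (by
    rw [CoOne.card_of_co1 h]
    norm_num)

theorem evenB_b {S : Type u} [Group S] [Fintype S] [IsSimpleGroup S] (h : Spor.IsoB S) : EvenB S :=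
  evenB_of_loc (r := 11) (by norm_num) (by norm_num) (loc_b h) (by
    rw [card_b h]
    norm_num)

end Cfsg.Agent.H682.EB
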